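import Cfsg.Agent.H417.JFourCaseE

/-!
# Groups of the order of `J₄` with the degree `2 ^ 21 * 3 ^ 3 * 5 * 7` (helper417)
-/

set_option autoImplicit false

namespace Cfsg.Agent.H417.JFourCaseF

open Subgroup Cfsg Cfsg.Agent.OrdDiv
open Cfsg.Agent.H424.DegTools
open Cfsg.Agent.H417.DegQuasi Cfsg.Agent.H417.QSTools Cfsg.Agent.H417.Tricho Cfsg.Agent.H417.Engine
open Cfsg.Agent.H417.CommPQ Cfsg.Agent.H417.TwoNum Cfsg.Agent.H417.CentQS Cfsg.Agent.H417.PairPQ
open Cfsg.Agent.H417.JFourCase Cfsg.Agent.H417.JFourCaseE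

universe u

/-- the small primes -/
def Small (r : ℕ) : Prop := r = 2 ∨ r = 3 ∨ r = 5 ∨ r = 7

/-- the degree -/
def bb : ℕ := 1981808640

theorem small_of_dvd {r : ℕ} (hr : r.Prime) (h : r ∣ bb) : Small r := by
  have h1 : bb = 2 ^ 21 * 3 ^ 3 * 5 * 7 := by decide +kernel
  rw [h1] at h
  unfold Small
  rcases hr.dvd_mul.1 h with h | h
  · rcases hr.dvd_mul.1 h with h | h
    · rcases hr.dvd_mul.1 h with h | h
      · left; exact (Nat.prime_dvd_prime_iff_eq hr (by norm_num)).1 (hr.dvd_of_dvd_pow h)
      · right; left; exact (Nat.prime_dvd_prime_iff_eq hr (by norm_num)).1 (hr.dvd_of_dvd_pow h)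
    · right; right; left; exact (Nat.prime_dvd_prime_iff_eq hr (by norm_num)).1 h
  · right; right; right; exact (Nat.prime_dvd_prime_iff_eq hr (by norm_num)).1 h

/-- defect zero for the small primes -/
def DZ (H : Type u) [Group H] (c : ℕ) : Prop :=
  ∀ r, Small r → (Nat.card H).factorization r ≤ c.factorization r

variable {H : Type u} [Group H] [Finite H]

theorem DZ.down {c : ℕ} (hc : c ∈ charDegrees H) (h : DZ H c) (M : Subgroup H) [M.Normal] :
    ∃ d ∈ charDegrees M, DZ M d := by
  obtain ⟨d, hd, h1, h2⟩ := clifford_down M hc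
  refine ⟨d, hd, fun r hr => ?_⟩
  have h3 := h r hr
  have hd0 : d ≠ 0 := (pos_of_mem hd).ne'
  have hc0 : c / d ≠ 0 := by
    intro h0
    have := Nat.mul_div_cancel' h1
    rw [h0, mul_zero] at this
    exact (pos_of_mem hc).ne' this.symm
  have h4 : c.factorization r = d.factorization r + (c / d).factorization r := by
    conv_lhs => rw [← Nat.mul_div_cancel' h1]
    rw [Nat.factorization_mul hd0 hc0, Finsupp.add_apply]
  have h5 : (Nat.card H).factorization r = (Nat.card M).factorization r + M.index.factorization r := by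
    rw [← M.card_mul_index, Nat.factorization_mul Nat.card_pos.ne' index_ne_zero_of_finite, Finsupp.add_apply]
  have h6 : (c / d).factorization r ≤ M.index.factorization r :=
    (Nat.factorization_le_iff_dvd hc0 index_ne_zero_of_finite).2 h2 r
  omega

/-- no normal `r`-subgroup -/
theorem DZ.bot {c : ℕ} (hc : c ∈ charDegrees H) (h : DZ H c) (M : Subgroup H) [M.Normal] {r : ℕ} (hr : Small r)
    (hM : IsPGroup r M) : M = ⊥ := by
  have hrp : r.Prime := by rcases hr with rfl | rfl | rfl | rfl <;> norm_num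
  have := Fact.mk hrp
  obtain ⟨k, hk⟩ := IsPGroup.iff_card.1 hM
  obtain ⟨d, hd, h1⟩ := h.down hc M
  have h2 := h1 r hr
  rw [hk, hrp.factorization_pow, Finsupp.single_eq_same] at h2
  have h3 : r ^ k ∣ d := (hrp.pow_dvd_iff_le_factorization (pos_of_mem hd).ne').2 h2
  have h4 := Nat.le_of_dvd (pos_of_mem hd) h3
  have h5 := sq_le hd ⊥ bot_le
  rw [index_bot, hk] at h5
  have h6 : 0 < r ^ k := Nat.pow_pos hrp.pos
  have h7 : r ^ k ≤ 1 := by
    by_contra hcon
    have : d ^ 2 ≤ d := h5.trans h4
    nlinarith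
  exact Subgroup.card_eq_one.1 (by rw [hk]; omega)

/-- divisibility by the `Small` part -/
theorem gcd_dvd {o d m : ℕ} (ho : o ≠ 0) (hm : m ≠ 0) (hom : o ∣ m) (hd : d ≠ 0)
    (h : ∀ r, Small r → m.factorization r ≤ d.factorization r) : Nat.gcd o bb ∣ d := by
  rw [← Nat.factorization_prime_le_iff_dvd (Nat.gcd_ne_zero_left ho) hd]
  intro r hr
  by_cases hs : Small r
  · refine le_trans ?_ (h r hs)
    refine le_trans ?_ ((Nat.factorization_le_iff_dvd ho hm).2 hom r)
    exact (Nat.factorization_le_iff_dvd (Nat.gcd_ne_zero_left ho) ho).2 (Nat.gcd_dvd_left _ _) r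
  · have h1 : ¬ r ∣ bb := fun h => hs (small_of_dvd hr h)
    have h2 : ¬ r ∣ Nat.gcd o bb := fun h => h1 (h.trans (Nat.gcd_dvd_right _ _))
    rw [Nat.factorization_eq_zero_of_not_dvd h2]
    exact Nat.zero_le _

/-- candidates -/
theorem DZ.cand {c : ℕ} (hc : c ∈ charDegrees H) (h : DZ H c) (X : Subgroup H) [X.Normal] {o : ℕ}
    (ho : Nat.card (X ⧸ center X) = o) : Nat.gcd o bb ^ 2 ≤ o := by
  obtain ⟨d, hd, h1⟩ := h.down hc X
  have h2 := sq_le hd (center X) le_rfl
  have h3 : (center X).index = o := ho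
  rw [h3] at h2
  have h0 : o ≠ 0 := by rw [← ho]; exact Nat.card_pos.ne'
  have h4 : Nat.gcd o bb ∣ d := gcd_dvd h0 (Nat.card_pos (α := X)).ne'
    (by rw [← ho]; exact card_quotient_dvd_card _) (pos_of_mem hd).ne' h1
  exact (Nat.pow_le_pow_left (Nat.le_of_dvd (pos_of_mem hd) h4) 2).trans h2

/-- the bound on the `2`-part of a group with `5` central Sylow subgroups -/
theorem DZ.central {c : ℕ} (hc : c ∈ charDegrees H) (h : DZ H c) (hd : Nat.card H ∣ NJ)
    (hcen : ∀ p, p = 23 ∨ p = 29 ∨ p = 31 ∨ p = 37 ∨ p = 43 → p ∣ Nat.card H → p ∣ Nat.card (center H)) :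
    2 ^ (Nat.card H).factorization 2 ≤ 11 ^ (Nat.card H).factorization 11 := by
  have hH0 : Nat.card H ≠ 0 := Nat.card_pos.ne'
  have hNJ : NJ ≠ 0 := by decide +kernel
  set g := Nat.gcd (Nat.card H) bb with hg
  have h1 : g ∣ c := gcd_dvd hH0 hH0 dvd_rfl (pos_of_mem hc).ne' h
  have h2 := sq_le hc (center H) le_rfl
  set i := (center H).index with hi
  have hi0 : i ≠ 0 := index_ne_zero_of_finite
  have hiH : i ∣ Nat.card H := (center H).index_dvd_card
  have hmul : Nat.card (center H) * i = Nat.card H := (center H).card_mul_index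
  -- `i` divides the part prime to the five primes
  have h3 : i ∣ bb * 1331 := by
    have hiN : i ∣ NJ := hiH.trans hd
    have e : NJ = bb * 1331 * (23 * 29 * 31 * 37 * 43) := by decide +kernel
    rw [e] at hiN
    refine Nat.Coprime.dvd_of_dvd_mul_right ?_ hiN
    have hno : ∀ p, p.Prime → (p = 23 ∨ p = 29 ∨ p = 31 ∨ p = 37 ∨ p = 43) → ¬ p ∣ i := by
      intro p hp hp' hpi
      have h4 := hcen p hp' (hpi.trans hiH)
      have h5 : p ^ 2 ∣ NJ := by
        rw [pow_two]
        exact (Nat.mul_dvd_mul h4 hpi).trans (hmul ▸ hd)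
      revert h5
      rcases hp' with rfl | rfl | rfl | rfl | rfl <;> decide +kernel
    have hcop : ∀ p, p.Prime → (p = 23 ∨ p = 29 ∨ p = 31 ∨ p = 37 ∨ p = 43) → i.Coprime p := fun p hp hp' =>
      ((Nat.Prime.coprime_iff_not_dvd hp).2 (hno p hp hp')).symm
    exact Nat.Coprime.mul_right (Nat.Coprime.mul_right (Nat.Coprime.mul_right (Nat.Coprime.mul_right
      (hcop 23 (by norm_num) (by tauto)) (hcop 29 (by norm_num) (by tauto))) (hcop 31 (by norm_num) (by tauto)))
      (hcop 37 (by norm_num) (by tauto))) (hcop 43 (by norm_num) (by tauto))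
  have h4 : i ∣ g * Nat.gcd (Nat.card H) 1331 := by
    have h5 := Nat.dvd_gcd hiH h3
    rwa [Nat.Coprime.gcd_mul (Nat.card H) (show Nat.Coprime bb 1331 by decide +kernel)] at h5
  have h5 : Nat.gcd (Nat.card H) 1331 ∣ 11 ^ (Nat.card H).factorization 11 := by
    have h6 : Nat.gcd (Nat.card H) 1331 ∣ 11 ^ 3 := Nat.gcd_dvd_right _ _
    obtain ⟨k, hk, hk'⟩ := (Nat.dvd_prime_pow (by norm_num : Nat.Prime 11)).1 h6
    rw [hk']
    refine pow_dvd_pow _ ?_
    rw [← (by norm_num : Nat.Prime 11).pow_dvd_iff_le_factorization hH0, ← hk']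
    exact Nat.gcd_dvd_left _ _
  have hg0 : 0 < g := Nat.gcd_pos_of_pos_left _ (Nat.pos_of_ne_zero hH0)
  have h6 : g ^ 2 ≤ g * 11 ^ (Nat.card H).factorization 11 := by
    refine (Nat.pow_le_pow_left (Nat.le_of_dvd (pos_of_mem hc) h1) 2).trans (h2.trans ?_)
    exact Nat.le_of_dvd (Nat.mul_pos hg0 (Nat.pow_pos (by norm_num))) (h4.trans (Nat.mul_dvd_mul_left _ h5))
  have h7 : g ≤ 11 ^ (Nat.card H).factorization 11 := by
    rw [pow_two] at h6
    exact Nat.le_of_mul_le_mul_left h6 hg0
  refine le_trans (Nat.le_of_dvd hg0 ?_) h7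
  refine Nat.dvd_gcd (Nat.ordProj_dvd _ _) ?_
  have h8 : (Nat.card H).factorization 2 ≤ 21 := by
    have := (Nat.factorization_le_iff_dvd hH0 hNJ).2 hd 2
    refine this.trans ?_
    by_contra hcon
    have h9 : 2 ^ 22 ∣ NJ := (Nat.prime_two.pow_dvd_iff_le_factorization hNJ).2 (by omega)
    revert h9
    decide +kernel
  exact (pow_dvd_pow 2 h8).trans (by decide +kernel)

theorem fact_mul (M : Subgroup H) (r : ℕ) :
    (Nat.card H).factorization r = (Nat.card M).factorization r + M.index.factorization r := by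
  rw [← M.card_mul_index, Nat.factorization_mul Nat.card_pos.ne' index_ne_zero_of_finite, Finsupp.add_apply]

/-- the five primes -/
def Five (p : ℕ) : Prop := p = 23 ∨ p = 29 ∨ p = 31 ∨ p = 37 ∨ p = 43

theorem Five.prime {p : ℕ} (h : Five p) : p.Prime := by
  rcases h with rfl | rfl | rfl | rfl | rfl <;> norm_num

theorem Five.sq {p : ℕ} (h : Five p) : ¬ p ^ 2 ∣ NJ := by
  rcases h with rfl | rfl | rfl | rfl | rfl <;> decide +kernel

theorem index_sylow_dvd (hd : Nat.card H ∣ NJ) {p : ℕ} (hp : Five p) [Fact p.Prime] (P : Sylow p H)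
    (hP : (P : Subgroup H).Normal) : (centralizer ((P : Subgroup H) : Set H)).index ∣ p - 1 := by
  by_cases h : p ∣ Nat.card H
  · exact index_centralizer_dvd hp.prime _ (sylow_card hd hp.sq h P)
  · have h1 : (P : Subgroup H) = ⊥ := by
      rw [← Subgroup.card_eq_one]
      have h2 : Nat.card P = p ^ (Nat.card H).factorization p := P.card_eq_multiplicity
      rw [Nat.factorization_eq_zero_of_not_dvd h, pow_zero] at h2
      exact h2
    have h2 : centralizer ((P : Subgroup H) : Set H) = ⊤ := by
      rw [h1, eq_top_iff]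
      intro x _
      rw [mem_centralizer_iff]
      intro y hy
      rw [SetLike.mem_coe, mem_bot] at hy
      rw [hy, one_mul, mul_one]
    rw [h2, index_top]
    exact one_dvd _

/-- all five Sylow subgroups normal -/
theorem all_normal {c : ℕ} (hc : c ∈ charDegrees H) (h : DZ H c) (hd : Nat.card H ∣ NJ)
    (hall : ∀ p, Five p → ∀ P : Sylow p H, (P : Subgroup H).Normal) :
    2 ^ (Nat.card H).factorization 2 ≤ 128 * 11 ^ (Nat.card H).factorization 11 := by
  obtain ⟨P1⟩ : Nonempty (Sylow 23 H) := inferInstance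
  obtain ⟨P2⟩ : Nonempty (Sylow 29 H) := inferInstance
  obtain ⟨P3⟩ : Nonempty (Sylow 31 H) := inferInstance
  obtain ⟨P4⟩ : Nonempty (Sylow 37 H) := inferInstance
  obtain ⟨P5⟩ : Nonempty (Sylow 43 H) := inferInstance
  have n1 := hall 23 (by unfold Five; tauto) P1
  have n2 := hall 29 (by unfold Five; tauto) P2
  have n3 := hall 31 (by unfold Five; tauto) P3
  have n4 := hall 37 (by unfold Five; tauto) P4
  have n5 := hall 43 (by unfold Five; tauto) P5
  set C1 := centralizer ((P1 : Subgroup H) : Set H) with hC1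
  set C2 := centralizer ((P2 : Subgroup H) : Set H) with hC2
  set C3 := centralizer ((P3 : Subgroup H) : Set H) with hC3
  set C4 := centralizer ((P4 : Subgroup H) : Set H) with hC4
  set C5 := centralizer ((P5 : Subgroup H) : Set H) with hC5
  have i1 := index_sylow_dvd hd (by unfold Five; tauto) P1 n1
  have i2 := index_sylow_dvd hd (by unfold Five; tauto) P2 n2
  have i3 := index_sylow_dvd hd (by unfold Five; tauto) P3 n3
  have i4 := index_sylow_dvd hd (by unfold Five; tauto) P4 n4
  have i5 := index_sylow_dvd hd (by unfold Five; tauto) P5 n5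
  set D : Subgroup H := C1 ⊓ (C2 ⊓ (C3 ⊓ (C4 ⊓ C5))) with hD
  have hDi : D.index ∣ 22 * (28 * (30 * (36 * 42))) :=
    (index_inf_dvd _ _).trans (Nat.mul_dvd_mul i1 ((index_inf_dvd _ _).trans (Nat.mul_dvd_mul i2
      ((index_inf_dvd _ _).trans (Nat.mul_dvd_mul i3 ((index_inf_dvd _ _).trans (Nat.mul_dvd_mul i4 i5)))))))
  have hDH : Nat.card D ∣ NJ := (card_subgroup_dvd_card D).trans hd
  obtain ⟨d, hdd, hdz⟩ := h.down hc D
  have key : ∀ (p : ℕ) (hp : Five p) (_ : Fact p.Prime) (P : Sylow p H), D ≤ centralizer ((P : Subgroup H) : Set H) →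
      p ∣ Nat.card D → p ∣ Nat.card (center D) := by
    intro p hp _ P hDP hpD
    have hPc := sylow_card hd hp.sq (hpD.trans (card_subgroup_dvd_card D)) P
    have hPD := Quasi.le_of_dvd P hPc D hpD
    have h1 : (P : Subgroup H).subgroupOf D ≤ center D := by
      intro x hx
      rw [mem_center_iff]
      intro g
      exact Subtype.ext (mem_centralizer_iff.1 (hDP g.2) x hx).symm
    have h2 : Nat.card ((P : Subgroup H).subgroupOf D) = p :=
      (Nat.card_congr (subgroupOfEquivOfLe hPD).toEquiv).trans hPc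
    rw [← h2]
    exact card_dvd_of_le h1
  have h1 := hdz.central hdd hDH (by
    rintro p (rfl | rfl | rfl | rfl | rfl) hpD
    · exact key 23 (by unfold Five; tauto) inferInstance P1 inf_le_left hpD
    · exact key 29 (by unfold Five; tauto) inferInstance P2 (inf_le_right.trans inf_le_left) hpD
    · exact key 31 (by unfold Five; tauto) inferInstance P3 (inf_le_right.trans (inf_le_right.trans inf_le_left)) hpD
    · exact key 37 (by unfold Five; tauto) inferInstance P4
        (inf_le_right.trans (inf_le_right.trans (inf_le_right.trans inf_le_left))) hpD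
    · exact key 43 (by unfold Five; tauto) inferInstance P5
        (inf_le_right.trans (inf_le_right.trans (inf_le_right.trans inf_le_right))) hpD)
  have h2 := fact_mul D 2
  have h3 := fact_mul D 11
  have h4 : D.index.factorization 2 ≤ 7 := by
    have h5 := (Nat.factorization_le_iff_dvd index_ne_zero_of_finite (by norm_num)).2 hDi 2
    refine h5.trans ?_
    by_contra hcon
    have h9 : 2 ^ 8 ∣ 22 * (28 * (30 * (36 * 42))) :=
      (Nat.prime_two.pow_dvd_iff_le_factorization (by norm_num)).2 (by omega)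
    revert h9
    decide +kernel
  rw [h2, pow_add]
  calc 2 ^ (Nat.card D).factorization 2 * 2 ^ D.index.factorization 2
      ≤ 11 ^ (Nat.card D).factorization 11 * 2 ^ 7 := Nat.mul_le_mul h1 (Nat.pow_le_pow_right (by norm_num) h4)
    _ ≤ 128 * 11 ^ (Nat.card H).factorization 11 := by
      rw [mul_comm, show (2 : ℕ) ^ 7 = 128 by norm_num]
      exact Nat.mul_le_mul_left _ (Nat.pow_le_pow_right (by norm_num) (by omega))

/-- the weight -/
def wt (n : ℕ) : ℕ := (if 23 ∣ n then 16 else 11) * (if 31 ∣ n then 32 else 11)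

theorem wt_pos (n : ℕ) : 121 ≤ wt n := by
  unfold wt
  split_ifs <;> norm_num

theorem wt_mono {m n : ℕ} (h : m ∣ n) : wt m ≤ wt n := by
  unfold wt
  by_cases h1 : 23 ∣ m
  · rw [if_pos h1, if_pos (h1.trans h)]
    by_cases h2 : 31 ∣ m
    · rw [if_pos h2, if_pos (h2.trans h)]
    · rw [if_neg h2]
      split_ifs <;> norm_num
  · rw [if_neg h1]
    by_cases h2 : 31 ∣ m
    · rw [if_pos h2, if_pos (h2.trans h)]
      split_ifs <;> norm_num
    · rw [if_neg h2]
      split_ifs <;> norm_num

theorem wt_23 {m n : ℕ} (h : m ∣ n) (h1 : ¬ 23 ∣ m) (h2 : 23 ∣ n) : 16 * wt m ≤ 11 * wt n := by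
  unfold wt
  rw [if_neg h1, if_pos h2]
  by_cases h3 : 31 ∣ m
  · rw [if_pos h3, if_pos (h3.trans h)]
  · rw [if_neg h3]
    split_ifs <;> norm_num

theorem wt_31 {m n : ℕ} (h : m ∣ n) (h1 : ¬ 31 ∣ m) (h2 : 31 ∣ n) : 32 * wt m ≤ 11 * wt n := by
  unfold wt
  rw [if_neg h1, if_pos h2]
  by_cases h3 : 23 ∣ m
  · rw [if_pos h3, if_pos (h3.trans h)]
  · rw [if_neg h3]
    split_ifs <;> norm_num

/-- the inductive step in numbers -/
theorem step_num {m n i k a w : ℕ} (hm : m ≠ 0) (hi : i ≠ 0) (hn : n = m * i) (h2 : i.factorization 2 ≤ k)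
    (h11 : m.factorization 11 + a ≤ n.factorization 11)
    (hw : 2 ^ k * wt m ≤ 11 ^ a * w)
    (ih : 121 * 2 ^ m.factorization 2 ≤ 128 * 11 ^ m.factorization 11 * wt m) :
    121 * 2 ^ n.factorization 2 ≤ 128 * 11 ^ n.factorization 11 * w := by
  have h1 : n.factorization 2 = m.factorization 2 + i.factorization 2 := by
    rw [hn, Nat.factorization_mul hm hi, Finsupp.add_apply]
  rw [h1, pow_add]
  calc 121 * (2 ^ m.factorization 2 * 2 ^ i.factorization 2)
      = (121 * 2 ^ m.factorization 2) * 2 ^ i.factorization 2 := by ring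
    _ ≤ (128 * 11 ^ m.factorization 11 * wt m) * 2 ^ k :=
      Nat.mul_le_mul ih (Nat.pow_le_pow_right (by norm_num) h2)
    _ = 128 * 11 ^ m.factorization 11 * (2 ^ k * wt m) := by ring
    _ ≤ 128 * 11 ^ m.factorization 11 * (11 ^ a * w) := Nat.mul_le_mul_left _ hw
    _ = 128 * 11 ^ (m.factorization 11 + a) * w := by rw [pow_add]; ring
    _ ≤ 128 * 11 ^ n.factorization 11 * w :=
      Nat.mul_le_mul_right _ (Nat.mul_le_mul_left _ (Nat.pow_le_pow_right (by norm_num) h11))

theorem fact_le_of {i A k p : ℕ} (hp : p.Prime) (hA : A ≠ 0) (h : i ∣ A) (h2 : ¬ p ^ (k + 1) ∣ A) :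
    i.factorization p ≤ k := by
  by_contra hcon
  have hi : i ≠ 0 := by rintro rfl; exact hA (Nat.eq_zero_of_zero_dvd h)
  exact h2 (((hp.pow_dvd_iff_le_factorization hi).2 (by omega)).trans h)

/-- **The component step** -/
theorem comp_step {o A a k w : ℕ} (X : Subgroup H) [X.Normal] (hX : commutator X = ⊤)
    (ho : Nat.card (X ⧸ center X) = o) (hA : Nat.card (MulAut (X ⧸ center X)) = A) (hA0 : A ≠ 0)
    (hk : ¬ 2 ^ (k + 1) ∣ A) (ha : 11 ^ a ∣ o)
    (hw : 2 ^ k * wt (Nat.card (centralizer (X : Set H))) ≤ 11 ^ a * w)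
    (ih : 121 * 2 ^ (Nat.card (centralizer (X : Set H))).factorization 2 ≤
      128 * 11 ^ (Nat.card (centralizer (X : Set H))).factorization 11 * wt (Nat.card (centralizer (X : Set H)))) :
    121 * 2 ^ (Nat.card H).factorization 2 ≤ 128 * 11 ^ (Nat.card H).factorization 11 * w := by
  set C := centralizer (X : Set H) with hC
  have h1 : o * Nat.card C ∣ Nat.card H := by
    rw [← ho]
    exact card_mul_dvd X
  have ho0 : o ≠ 0 := by rw [← ho]; exact Nat.card_pos.ne'
  refine step_num (m := Nat.card C) (i := C.index) (k := k) (a := a) Nat.card_pos.ne' index_ne_zero_of_finite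
    C.card_mul_index.symm ?_ ?_ hw ih
  · refine fact_le_of Nat.prime_two hA0 ?_ hk
    rw [← hA]
    exact index_dvd X hX
  · have h2 := (Nat.factorization_le_iff_dvd (Nat.mul_ne_zero ho0 (Nat.card_pos (α := C)).ne')
      (Nat.card_pos (α := H)).ne').2 h1 11
    rw [Nat.factorization_mul ho0 (Nat.card_pos (α := C)).ne', Finsupp.add_apply] at h2
    have h3 : a ≤ o.factorization 11 := ((by norm_num : Nat.Prime 11).pow_dvd_iff_le_factorization ho0).1 ha
    omega

theorem bound (T : OrderTable.{u}) (hK : ∀ (K : Type u) [Group K] [Finite K] [IsSimpleGroup K],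
    IsKnownSimple' K) (n : ℕ) : ∀ (H : Type u) [Group H] [Finite H], Nat.card H = n → n ∣ NJ →
    (∀ X : Subgroup H, X.Normal → Real .j4 (X ⧸ center X) → Nat.card (X ⧸ center X) = NJ → False) →
    ∀ c ∈ charDegrees H, DZ H c → 121 * 2 ^ n.factorization 2 ≤ 128 * 11 ^ n.factorization 11 * wt n := by
  induction n using Nat.strong_induction_on with
  | _ n ih =>
  intro H _ _ hH hn hJ c hc hDZ
  subst hH
  by_cases hall : ∀ p, Five p → ∀ P : Sylow p H, (P : Subgroup H).Normal
  · have h1 := all_normal hc hDZ hn hall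
    have h2 := wt_pos (Nat.card H)
    calc 121 * 2 ^ (Nat.card H).factorization 2 ≤ 121 * (128 * 11 ^ (Nat.card H).factorization 11) :=
          Nat.mul_le_mul_left _ h1
      _ = 128 * 11 ^ (Nat.card H).factorization 11 * 121 := by ring
      _ ≤ _ := Nat.mul_le_mul_left _ h2
  · push Not at hall
    obtain ⟨p, hp, P, hP⟩ := hall
    have hpF : Fact p.Prime := ⟨hp.prime⟩
    have hpH : p ∣ Nat.card H := by
      by_contra h
      apply hP
      have h1 : (P : Subgroup H) = ⊥ := by
        rw [← Subgroup.card_eq_one]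
        have h2 : Nat.card P = p ^ (Nat.card H).factorization p := P.card_eq_multiplicity
        rw [Nat.factorization_eq_zero_of_not_dvd h, pow_zero] at h2
        exact h2
      rw [h1]
      infer_instance
    obtain ⟨X, hX, hXc, h⟩ := engine_two T hK valid_N once_N
      (by rcases hp with rfl | rfl | rfl | rfl | rfl <;> decide +kernel) hn P (sylow_card hn hp.sq hpH P) hP
    rcases h with h | ⟨hper, -, -, g, hg, hgr, hgo, -⟩
    · exfalso
      apply hXc
      rw [hDZ.bot hc X (r := 2) (Or.inl rfl) h]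
      exact bot_le
    · have hg1 : g ∈ (cands lN NJ).filter (fun g => decide (Nat.gcd (ordN g) bb ^ 2 ≤ ordN g)) := by
        rw [List.mem_filter]
        refine ⟨(List.mem_filter.1 hg).1, ?_⟩
        rw [decide_eq_true_eq, ← hgo]
        exact hDZ.cand hc X rfl
      rw [show (cands lN NJ).filter (fun g => decide (Nat.gcd (ordN g) bb ^ 2 ≤ ordN g)) =
        [.psl 2 32, .psl 2 23, .psl 2 43, .psu 3 11, .j4] by decide +kernel] at hg1
      simp only [List.mem_cons, List.not_mem_nil, or_false] at hg1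
      -- the centralizer
      set C := centralizer (X : Set H) with hC
      have hdvd : Nat.card (X ⧸ center X) * Nat.card C ∣ Nat.card H := card_mul_dvd X
      obtain ⟨d, hd, hdz⟩ := hDZ.down hc C
      have hCn : Nat.card C ∣ NJ := (card_subgroup_dvd_card C).trans hn
      have hCH : Nat.card C ∣ Nat.card H := card_subgroup_dvd_card C
      have ih' : 1 < Nat.card (X ⧸ center X) → 121 * 2 ^ (Nat.card C).factorization 2 ≤
          128 * 11 ^ (Nat.card C).factorization 11 * wt (Nat.card C) := by
        intro hgt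
        have hlt : Nat.card C < Nat.card H := by
          have h1 := Nat.le_of_dvd Nat.card_pos hdvd
          have h2 : 0 < Nat.card C := Nat.card_pos
          nlinarith
        refine ih (Nat.card C) hlt C rfl hCn ?_ d hd hdz
        intro Y hY _ hYN
        have h1 : Nat.card (Y ⧸ center Y) ≤ Nat.card C :=
          Nat.le_of_dvd Nat.card_pos ((card_quotient_dvd_card _).trans (card_subgroup_dvd_card Y))
        have h2 : Nat.card H ≤ NJ := Nat.le_of_dvd (by decide +kernel) hn
        omega
      -- divisibility by the primes of the component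
      have hq : ∀ q, q.Prime → q ∣ Nat.card (X ⧸ center X) → ¬ q ^ 2 ∣ NJ →
          ¬ q ∣ Nat.card C ∧ q ∣ Nat.card H := by
        intro q _ hqo hq2
        refine ⟨fun h => hq2 ?_, hqo.trans ((dvd_mul_right _ _).trans hdvd)⟩
        rw [pow_two]
        exact (Nat.mul_dvd_mul hqo h).trans (hdvd.trans hn)
      have f2 : Fact (Nat.Prime 2) := ⟨Nat.prime_two⟩
      rcases hg1 with rfl | rfl | rfl | rfl | rfl
      · have ho : Nat.card (X ⧸ center X) = 32736 := by rw [hgo]; decide +kernel
        obtain ⟨q1, q2⟩ := hq 31 (by norm_num) (by rw [ho]; norm_num) (by decide +kernel)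
        have hw := wt_31 hCH q1 q2
        exact comp_step X hper ho (aut_psl (p := 2) (f := 5) (by norm_num) (by norm_num) (by norm_num) hgr)
          (by norm_num) (k := 5) (a := 1) (by norm_num) (by norm_num) (by simpa using hw) (ih' (by rw [ho]; norm_num))
      · have ho : Nat.card (X ⧸ center X) = 6072 := by rw [hgo]; decide +kernel
        obtain ⟨q1, q2⟩ := hq 23 (by norm_num) (by rw [ho]; norm_num) (by decide +kernel)
        have hw := wt_23 hCH q1 q2
        exact comp_step X hper ho (aut_psl (p := 23) (f := 1) (by norm_num) (by norm_num) (by norm_num) hgr)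
          (by norm_num) (k := 4) (a := 1) (by norm_num) (by norm_num) (by simpa using hw) (ih' (by rw [ho]; norm_num))
      · have ho : Nat.card (X ⧸ center X) = 39732 := by rw [hgo]; decide +kernel
        have hw := wt_mono hCH
        exact comp_step X hper ho (aut_psl (p := 43) (f := 1) (by norm_num) (by norm_num) (by norm_num) hgr)
          (by norm_num) (k := 3) (a := 1) (by norm_num) (by norm_num) (by rw [← hC]; omega) (ih' (by rw [ho]; norm_num))
      · have ho : Nat.card (X ⧸ center X) = 70915680 := by rw [hgo]; decide +kernel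
        have hw := wt_mono hCH
        have hA := aut_psu hgr
        rw [ho] at hA
        exact comp_step X hper ho hA
          (by norm_num) (k := 6) (a := 3) (by norm_num) (by norm_num) (by rw [← hC]; omega) (ih' (by rw [ho]; norm_num))
      · exfalso
        exact hJ X hX hgr (by rw [hgo]; decide +kernel)

/-- **Case F** -/
theorem case_F (T : OrderTable.{u}) (hK : ∀ (K : Type u) [Group K] [Finite K] [IsSimpleGroup K],
    IsKnownSimple' K) (hN : Nat.card H = NJ) (hd : 1981808640 ∈ charDegrees H) : Spor.IsoJ4 H := by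
  by_contra hno
  have hDZ : DZ H 1981808640 := by
    intro r hr
    rw [hN]
    have e : (1981808640 : ℕ) ≠ 0 := by norm_num
    rcases hr with rfl | rfl | rfl | rfl
    · exact (fact_le_of (by norm_num) (by decide +kernel) dvd_rfl (by decide +kernel) :
        NJ.factorization 2 ≤ 21).trans (((by norm_num : Nat.Prime 2).pow_dvd_iff_le_factorization e).1 (by decide +kernel))
    · exact (fact_le_of (by norm_num) (by decide +kernel) dvd_rfl (by decide +kernel) :
        NJ.factorization 3 ≤ 3).trans (((by norm_num : Nat.Prime 3).pow_dvd_iff_le_factorization e).1 (by decide +kernel))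
    · exact (fact_le_of (by norm_num) (by decide +kernel) dvd_rfl (by decide +kernel) :
        NJ.factorization 5 ≤ 1).trans (((by norm_num : Nat.Prime 5).pow_dvd_iff_le_factorization e).1 (by decide +kernel))
    · exact (fact_le_of (by norm_num) (by decide +kernel) dvd_rfl (by decide +kernel) :
        NJ.factorization 7 ≤ 1).trans (((by norm_num : Nat.Prime 7).pow_dvd_iff_le_factorization e).1 (by decide +kernel))
  have hb := bound T hK NJ H hN dvd_rfl ?_ _ hd hDZ
  · have h2 : 21 ≤ NJ.factorization 2 :=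
      (Nat.prime_two.pow_dvd_iff_le_factorization (by decide +kernel)).1 (by decide +kernel)
    have h11 : NJ.factorization 11 ≤ 3 :=
      fact_le_of (by norm_num) (by decide +kernel) dvd_rfl (by decide +kernel)
    have hw : wt NJ ≤ 512 := by
      unfold wt
      split_ifs <;> norm_num
    have h3 : 121 * 2 ^ 21 ≤ 128 * 11 ^ 3 * 512 :=
      (Nat.mul_le_mul_left _ (Nat.pow_le_pow_right (by norm_num) h2)).trans (hb.trans
        (Nat.mul_le_mul (Nat.mul_le_mul_left _ (Nat.pow_le_pow_right (by norm_num) h11)) hw))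
    norm_num at h3
  · intro X hX hr hc
    apply hno
    -- `X = H`, trivial centre
    have h1 : Nat.card (X ⧸ center X) * Nat.card (center X) * X.index = Nat.card H := by
      rw [← X.card_mul_index, ← (center X).index_mul_card]
      rfl
    rw [hc, hN, mul_assoc] at h1
    have h0 : 0 < NJ := by decide +kernel
    have h2 : Nat.card (center X) * X.index = 1 := Nat.eq_of_mul_eq_mul_left h0 (by rw [h1, mul_one])
    have hz1 : Nat.card (center X) = 1 := Nat.eq_one_of_mul_eq_one_right h2
    have hi1 : X.index = 1 := Nat.eq_one_of_mul_eq_one_left h2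
    have hL : X = ⊤ := Subgroup.index_eq_one.1 hi1
    have hZ : center X = ⊥ := Subgroup.card_eq_one.1 hz1
    have e1 : H ≃* X := (Subgroup.topEquiv.symm).trans (MulEquiv.subgroupCongr hL.symm)
    have e2 : X ≃* X ⧸ center X :=
      (QuotientGroup.quotientBot.symm).trans (QuotientGroup.quotientMulEquivOfEq hZ.symm)
    have hr' : Spor.IsoJ4 (X ⧸ center X) := hr
    exact Nonempty.intro (e1.trans e2) |>.elim fun e => by
      obtain ⟨f⟩ := hr'
      exact ⟨e.trans f⟩

end Cfsg.Agent.H417.JFourCaseF
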