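import Cfsg.Agent.H417.SylEngine
import Cfsg.Agent.H482.SylowNumbers
import Cfsg.Agent.S4304
import Cfsg.Agent.Characters.CNBasic

/-!
# Centreless groups with the Sylow numbers of `PSL(2,17)` (helper417)
-/

set_option autoImplicit false

namespace Cfsg.Agent.H417.SylMain

open Subgroup MulAction Cfsg Cfsg.Agent.OrdDiv
open Cfsg.Agent.H417.SylSeventeen Cfsg.Agent.H417.SylEngine
open Cfsg.Agent.H571.SylowNumber

universe u v

/-- The quotient by the kernel is faithful on its Sylow subgroups. -/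
theorem hyp_quotient {G : Type u} [Group G] [Finite G] (h : Nat.card (Sylow 17 G) = 18) :
    Hyp (G ⧸ (toPermHom G (Sylow 17 G)).ker) := by
  refine ⟨by rw [S4304.card_sylow_quotient, h], ?_⟩
  set K := (toPermHom G (Sylow 17 G)).ker with hK
  have hs : Function.Surjective (QuotientGroup.mk' K) := QuotientGroup.mk'_surjective K
  intro x hx
  obtain ⟨g, rfl⟩ := hs x
  have key : g ∈ K := by
    rw [hK, MonoidHom.mem_ker]
    apply Equiv.ext
    intro P
    show g • P = P
    -- `g` normalizes `P K`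
    have h1 := hx (P.mapSurjective hs)
    rw [Sylow.smul_eq_iff_mem_normalizer] at h1
    have h2 : g ∈ normalizer (((P : Subgroup G) ⊔ K : Subgroup G) : Set G) := by
      have h3 : g ∈ (normalizer ((((P : Subgroup G).map (QuotientGroup.mk' K) : Subgroup (G ⧸ K))) :
          Set (G ⧸ K))).comap (QuotientGroup.mk' K) := h1
      rw [Subgroup.comap_normalizer_eq_of_surjective _ hs, Subgroup.comap_map_eq,
        QuotientGroup.ker_mk'] at h3
      exact h3
    -- `P` is the only Sylow subgroup in `P K`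
    have h4 : ((g • P : Sylow 17 G) : Subgroup G) ≤ (P : Subgroup G) ⊔ K := by
      rw [Sylow.coe_subgroup_smul]
      rintro _ ⟨y, hy, rfl⟩
      exact (mem_normalizer_iff.1 h2 y).1 (le_sup_left (a := (P : Subgroup G)) hy)
    have h5 : (P : Subgroup G) ⊔ K ≤ normalizer ((P : Subgroup G) : Set G) := by
      refine sup_le le_normalizer fun k hk => ?_
      have h6 : k • P = P := congrArg (fun σ : Equiv.Perm (Sylow 17 G) => σ P) (MonoidHom.mem_ker.1 hk)
      exact (Sylow.smul_eq_iff_mem_normalizer).1 h6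
    have h6 := IsPGroup.inf_normalizer_sylow (g • P).isPGroup' P
    have h7 : ((g • P : Sylow 17 G) : Subgroup G) ≤ normalizer (P : Set G) := h4.trans h5
    rw [inf_eq_left.2 h7] at h6
    have h8 := inf_eq_left.1 h6.symm
    exact Sylow.ext ((g • P).is_maximal' P.isPGroup' h8).symm
  exact (QuotientGroup.eq_one_iff g).2 key

/-- A normal subgroup of a group with one Sylow `r`-subgroup. -/
theorem no_prime {M : Type u} [Group M] [Finite M] {r q N : ℕ} [hr : Fact r.Prime] [hq : Fact q.Prime]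
    (hrM : Nat.card (Sylow r M) = 1) (hqM : Nat.card (Sylow q M) = N) (hrN : r ∣ N)
    (hno : ∀ d, d ∣ N → (∃ k, d = r ^ k) → d % q = 1 → d = 1) : False := by
  obtain ⟨T⟩ : Nonempty (Sylow r M) := inferInstance
  obtain ⟨Q⟩ : Nonempty (Sylow q M) := inferInstance
  have hT : (T : Subgroup M).Normal := by
    have h1 : (normalizer (T : Set M)).index = 1 := by
      rw [← T.card_eq_index_normalizer, hrM]
    rw [Subgroup.index_eq_one] at h1
    exact Subgroup.normalizer_eq_top_iff.1 h1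
  have h1 := card_sylow_eq_mul Q (T : Subgroup M)
  -- `n_q(QT)` is a power of `r`
  have h2 := card_sylow_eq_relIndex Q ((Q : Subgroup M) ⊔ T) le_sup_left
  have h3 : (normalizer ((Q : Subgroup M) : Set M)).relIndex ((Q : Subgroup M) ⊔ T) ∣
      Nat.card (T : Subgroup M) := by
    have e1 : (normalizer ((Q : Subgroup M) : Set M)).relIndex ((Q : Subgroup M) ⊔ T) ∣
        (Q : Subgroup M).relIndex ((Q : Subgroup M) ⊔ T) :=
      Subgroup.relIndex_dvd_of_le_left _ le_normalizer
    have e2 : (Q : Subgroup M).relIndex ((Q : Subgroup M) ⊔ T) = (Q : Subgroup M).relIndex T :=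
      relIndex_sup_of_normal _ _
    rw [e2] at e1
    exact e1.trans (Subgroup.index_dvd_card _)
  obtain ⟨k, hk⟩ := IsPGroup.iff_card.mp T.isPGroup'
  have hk' : Nat.card (T : Subgroup M) = r ^ k := hk
  rw [hk', ← h2] at h3
  obtain ⟨j, -, hj⟩ := (Nat.dvd_prime_pow hr.out).1 h3
  have h4 : Nat.card (Sylow q ((Q : Subgroup M) ⊔ T : Subgroup M)) = 1 := by
    refine hno _ ?_ ⟨j, hj⟩ ?_
    · rw [← hqM, h1]
      exact dvd_mul_left _ _
    · have h5 := card_sylow_modEq_one q ((Q : Subgroup M) ⊔ T : Subgroup M)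
      unfold Nat.ModEq at h5
      rw [h5, Nat.mod_eq_of_lt hq.out.one_lt]
  rw [h4, mul_one, hqM] at h1
  have h5 : N ∣ (T : Subgroup M).index := by
    rw [h1]
    obtain ⟨R⟩ : Nonempty (Sylow q (M ⧸ (T : Subgroup M))) := inferInstance
    rw [R.card_eq_index_normalizer]
    exact (Subgroup.index_dvd_card _)
  exact T.not_dvd_index (hrN.trans h5)

/-- A normal subgroup normalizing all Sylow subgroups of a centreless group is trivial. -/
theorem eq_bot {G : Type u} [Group G] [Finite G] (hZ : center G = ⊥) (K : Subgroup G) [K.Normal]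
    (hK : ∀ r : ℕ, r.Prime → ∀ P : Sylow r G, K ≤ normalizer (P : Set G)) : K = ⊥ := by
  by_contra hne
  have hc : Nat.card K ≠ 1 := fun h => hne (Subgroup.card_eq_one.1 h)
  obtain ⟨s, hs, hsK⟩ := Nat.exists_prime_and_dvd hc
  have hfs : Fact s.Prime := ⟨hs⟩
  obtain ⟨S⟩ : Nonempty (Sylow s G) := inferInstance
  obtain ⟨T, hT⟩ := exists_sylow_inf S K
  have hTn : (T : Subgroup K).Normal := by
    rw [hT]
    refine ⟨fun x hx k => ?_⟩
    rw [mem_subgroupOf] at hx ⊢
    exact (mem_normalizer_iff.1 (hK s hs S k.2) (x : G)).1 hx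
  have hTc : (T : Subgroup K).Characteristic := T.characteristic_of_normal hTn
  let A : Subgroup G := (T : Subgroup K).map K.subtype
  have hA : A.Normal := ConjAct.normal_of_characteristic_of_normal
  have hAS : A ≤ S := by
    rintro _ ⟨x, hx, rfl⟩
    have h1 : x ∈ (S : Subgroup G).subgroupOf K := by rw [← hT]; exact hx
    exact h1
  have hAK : A ≤ K := by
    rintro _ ⟨x, hx, rfl⟩
    exact x.2
  have hAp : IsPGroup s A := S.isPGroup'.to_le hAS
  have hA1 : A ≠ ⊥ := by
    intro h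
    rw [Subgroup.map_eq_bot_iff_of_injective _ K.subtype_injective] at h
    apply T.not_dvd_index
    rw [h, Subgroup.index_bot]
    exact hsK
  obtain ⟨z, hzA, hz1, hzS⟩ := Characters.CNBasic.exists_mem_center_of_normal (S : Subgroup G)
    S.isPGroup' A hAp hA1 (fun t _ d hd => hA.conj_mem d hd t)
  -- `A` centralizes the other Sylow subgroups
  have hcent : ∀ r : ℕ, r.Prime → ∃ P : Sylow r G, (P : Subgroup G) ≤ centralizer ({z} : Set G) := by
    intro r hr
    have hfr : Fact r.Prime := ⟨hr⟩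
    by_cases hrs : r = s
    · subst hrs
      exact ⟨S, fun t ht => mem_centralizer_singleton_iff.2 (hzS t ht)⟩
    · obtain ⟨P⟩ : Nonempty (Sylow r G) := inferInstance
      refine ⟨P, fun t ht => mem_centralizer_singleton_iff.2 ?_⟩
      have h1 : z * t * z⁻¹ * t⁻¹ ∈ P :=
        mul_mem ((mem_normalizer_iff.1 (hK r hr P (hAK hzA)) t).1 ht) (inv_mem ht)
      have h2 : z * t * z⁻¹ * t⁻¹ ∈ A := by
        have h3 := hA.conj_mem _ (inv_mem hzA) t
        have h4 : z * t * z⁻¹ * t⁻¹ = z * (t * z⁻¹ * t⁻¹) := by group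
        rw [h4]
        exact mul_mem hzA h3
      have h3 : z * t * z⁻¹ * t⁻¹ = 1 := by
        have h4 : Disjoint (P : Subgroup G) A := IsPGroup.disjoint_of_ne r s hrs _ _ P.isPGroup' hAp
        exact (Subgroup.disjoint_def.1 h4) h1 h2
      have h4 : z * t = t * z := by
        calc z * t = (z * t * z⁻¹ * t⁻¹) * t * z := by group
          _ = t * z := by rw [h3, one_mul]
      exact h4.symm
  have hC : (centralizer ({z} : Set G)).index = 1 := by
    by_contra hne1
    obtain ⟨r, hr, hrd⟩ := Nat.exists_prime_and_dvd hne1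
    have hfr : Fact r.Prime := ⟨hr⟩
    obtain ⟨P, hP⟩ := hcent r hr
    exact P.not_dvd_index (hrd.trans (Subgroup.index_dvd_of_le hP))
  rw [Subgroup.index_eq_one] at hC
  apply hz1
  have h1 : z ∈ center G := by
    rw [mem_center_iff]
    intro g
    have h2 : g ∈ centralizer ({z} : Set G) := by rw [hC]; trivial
    exact mem_centralizer_singleton_iff.1 h2
  rw [hZ, mem_bot] at h1
  exact h1

/-- All Sylow `r`-subgroups are normalized by `K` when `G / K` has as many. -/
theorem le_normalizer_of_card {G : Type u} [Group G] [Finite G] {r : ℕ} [Fact r.Prime]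
    (K : Subgroup G) [K.Normal] (h : Nat.card (Sylow r (G ⧸ K)) = Nat.card (Sylow r G))
    (P : Sylow r G) : K ≤ normalizer (P : Set G) := by
  have h1 := card_sylow_eq_mul P K
  rw [h] at h1
  have h2 : 0 < Nat.card (Sylow r G) := Nat.card_pos
  have h3 : Nat.card (Sylow r ((P : Subgroup G) ⊔ K : Subgroup G)) = 1 := by
    have : Nat.card (Sylow r G) * 1 =
        Nat.card (Sylow r G) * Nat.card (Sylow r ((P : Subgroup G) ⊔ K : Subgroup G)) := by
      rw [mul_one]; exact h1
    exact (Nat.eq_of_mul_eq_mul_left h2 this).symm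
  rw [card_sylow_eq_relIndex P _ le_sup_left, Subgroup.relIndex_eq_one] at h3
  exact le_sup_right.trans h3

theorem main (T : OrderTable.{u}) (hK : ∀ (K : Type u) [Group K] [Finite K] [IsSimpleGroup K],
    IsKnownSimple' K) {G : Type u} [Group G] [Finite G] (hZ : center G = ⊥)
    (hNS : {c : ℕ | ∃ r : ℕ, r.Prime ∧ r ∣ Nat.card G ∧ c = Nat.card (Sylow r G)} =
      ({18, 136, 153} : Set ℕ))
    {F : Type v} [Field F] [Fintype F] (hF : Fintype.card F = 17) :
    Nonempty (G ≃* Matrix.ProjectiveSpecialLinearGroup (Fin 2) F) ∨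
      Nonempty (G ≃* (GL (Fin 2) F ⧸ Subgroup.center (GL (Fin 2) F))) := by
  -- the Sylow numbers
  have hmem : ∀ r : ℕ, r.Prime → r ∣ Nat.card G → Nat.card (Sylow r G) ∈ ({18, 136, 153} : Set ℕ) := by
    intro r hr hrG
    rw [← hNS]
    exact ⟨r, hr, hrG, rfl⟩
  have hmod : ∀ r : ℕ, r.Prime → Nat.card (Sylow r G) % r = 1 := by
    intro r hr
    have hfr : Fact r.Prime := ⟨hr⟩
    have h1 := card_sylow_modEq_one r G
    unfold Nat.ModEq at h1
    rw [h1, Nat.mod_eq_of_lt hr.one_lt]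
  have hprime : ∀ r : ℕ, r.Prime → r ∣ Nat.card G →
      (r = 17 ∧ Nat.card (Sylow r G) = 18) ∨ (r = 3 ∧ Nat.card (Sylow r G) = 136) ∨
      (r = 5 ∧ Nat.card (Sylow r G) = 136) ∨ (r = 2 ∧ Nat.card (Sylow r G) = 153) ∨
      (r = 19 ∧ Nat.card (Sylow r G) = 153) := by
    intro r hr hrG
    have h1 := hmem r hr hrG
    have h2 := hmod r hr
    simp only [Set.mem_insert_iff, Set.mem_singleton_iff] at h1
    rcases h1 with h1 | h1 | h1
    · left
      refine ⟨?_, h1⟩
      rw [h1] at h2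
      have h3 : r ∣ 17 := (Nat.modEq_iff_dvd' (by norm_num)).1 (show 1 ≡ 18 [MOD r] by
        unfold Nat.ModEq; rw [h2, Nat.mod_eq_of_lt hr.one_lt])
      exact (Nat.prime_dvd_prime_iff_eq hr (by norm_num)).1 h3
    · rw [h1] at h2
      have h3 : r ∣ 135 := (Nat.modEq_iff_dvd' (by norm_num)).1 (show 1 ≡ 136 [MOD r] by
        unfold Nat.ModEq; rw [h2, Nat.mod_eq_of_lt hr.one_lt])
      have h4 : r ∣ 3 ^ 3 * 5 := by simpa using h3
      rcases (Nat.Prime.dvd_mul hr).1 h4 with h5 | h5
      · right; left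
        exact ⟨(Nat.prime_dvd_prime_iff_eq hr (by norm_num)).1 (hr.dvd_of_dvd_pow h5), h1⟩
      · right; right; left
        exact ⟨(Nat.prime_dvd_prime_iff_eq hr (by norm_num)).1 h5, h1⟩
    · rw [h1] at h2
      have h3 : r ∣ 152 := (Nat.modEq_iff_dvd' (by norm_num)).1 (show 1 ≡ 153 [MOD r] by
        unfold Nat.ModEq; rw [h2, Nat.mod_eq_of_lt hr.one_lt])
      have h4 : r ∣ 2 ^ 3 * 19 := by simpa using h3
      rcases (Nat.Prime.dvd_mul hr).1 h4 with h5 | h5
      · right; right; right; left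
        exact ⟨(Nat.prime_dvd_prime_iff_eq hr (by norm_num)).1 (hr.dvd_of_dvd_pow h5), h1⟩
      · right; right; right; right
        exact ⟨(Nat.prime_dvd_prime_iff_eq hr (by norm_num)).1 h5, h1⟩
  have h17 : Nat.card (Sylow 17 G) = 18 := by
    have h1 : (18 : ℕ) ∈ ({18, 136, 153} : Set ℕ) := by simp
    rw [← hNS] at h1
    obtain ⟨r, hr, hrG, h2⟩ := h1
    rcases hprime r hr hrG with ⟨rfl, h3⟩ | ⟨rfl, h3⟩ | ⟨rfl, h3⟩ | ⟨rfl, h3⟩ | ⟨rfl, h3⟩
    · exact h3
    all_goals rw [← h2] at h3; norm_num at h3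
  have hdG : 18 ∣ Nat.card G := by
    obtain ⟨P⟩ : Nonempty (Sylow 17 G) := inferInstance
    rw [← h17, P.card_eq_index_normalizer]
    exact Subgroup.index_dvd_card _
  have h2 : Nat.card (Sylow 2 G) = 153 := by
    rcases hprime 2 (by norm_num) ((by norm_num : 2 ∣ 18).trans hdG) with
      ⟨h, h3⟩ | ⟨h, h3⟩ | ⟨h, h3⟩ | ⟨h, h3⟩ | ⟨h, h3⟩
    · omega
    · omega
    · omega
    · exact h3
    · omega
  have h3 : Nat.card (Sylow 3 G) = 136 := by
    rcases hprime 3 (by norm_num) ((by norm_num : 3 ∣ 18).trans hdG) with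
      ⟨h, h3⟩ | ⟨h, h3⟩ | ⟨h, h3⟩ | ⟨h, h3⟩ | ⟨h, h3⟩
    · omega
    · exact h3
    · omega
    · omega
    · omega
  -- the quotient
  set K := (toPermHom G (Sylow 17 G)).ker with hKdef
  have hKn : K.Normal := MonoidHom.normal_ker _
  have hyp : Hyp (G ⧸ K) := hyp_quotient h17
  obtain ⟨L, hL, ⟨F', _, _, hF', ⟨e⟩⟩, hLc, hX, -⟩ := exists_psl T hK hyp
  obtain ⟨x, hx⟩ := exists_nine hF'
  obtain ⟨y, hy⟩ : ∃ y : G ⧸ K, orderOf y = 9 := by
    refine ⟨(e.symm x : L), ?_⟩
    rw [Subgroup.orderOf_coe, MulEquiv.orderOf_eq, hx]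
  obtain ⟨n, hn, hn8⟩ : ∃ n, Nat.card (G ⧸ K) = 306 * n ∧ 8 ≤ n := by
    rcases hX with h | h
    · exact ⟨8, by rw [h], le_rfl⟩
    · exact ⟨16, by rw [h], by norm_num⟩
  have q2 : Nat.card (Sylow 2 (G ⧸ K)) = Nat.card (Sylow 2 G) := by
    rw [hyp.card_sylow_two hn hn8, h2]
  have q3 : Nat.card (Sylow 3 (G ⧸ K)) = Nat.card (Sylow 3 G) := by
    rw [hyp.card_sylow_three hn hn8 hy (by
      rw [← h3]
      exact H482.SylowNumbers.card_sylow_quotient_dvd 3 K), h3]
  have q17 : Nat.card (Sylow 17 (G ⧸ K)) = Nat.card (Sylow 17 G) := by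
    rw [hyp.card, h17]
  have hnorm : ∀ r : ℕ, r = 2 ∨ r = 3 ∨ r = 17 → ∀ P : Sylow r G, K ≤ normalizer (P : Set G) := by
    rintro r (rfl | rfl | rfl) P
    · exact le_normalizer_of_card K q2 P
    · exact le_normalizer_of_card K q3 P
    · exact le_normalizer_of_card K q17 P
  -- `n_r(K) = 1`
  have hone : ∀ r : ℕ, r = 2 ∨ r = 3 ∨ r = 17 → Nat.card (Sylow r K) = 1 := by
    intro r hr
    have hfr : Fact r.Prime := ⟨by rcases hr with rfl | rfl | rfl <;> norm_num⟩
    obtain ⟨P⟩ : Nonempty (Sylow r G) := inferInstance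
    rw [card_sylow_normal P K, Subgroup.relIndex_eq_one]
    intro k hk
    refine mem_normalizer_iff.2 fun x => ?_
    have h4 := mem_normalizer_iff.1 (hnorm r hr P hk) x
    have h5 : x ∈ K ↔ k * x * k⁻¹ ∈ K :=
      mem_normalizer_iff.1 (show k ∈ normalizer (K : Set G) from le_normalizer hk) x
    exact and_congr h4 h5
  -- no other primes
  have hbig : ∀ q : ℕ, q = 5 ∨ q = 19 → ¬ q ∣ Nat.card G := by
    intro q hq hqG
    have hqp : q.Prime := by rcases hq with rfl | rfl <;> norm_num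
    have hfq : Fact q.Prime := ⟨hqp⟩
    obtain ⟨Q⟩ : Nonempty (Sylow q G) := inferInstance
    have hi : ¬ q ∣ K.index := by
      have h4 : K.index = 306 * n := hn
      have h5 : K.index = 2448 ∨ K.index = 4896 := hX
      rcases hq with rfl | rfl <;> rcases h5 with h5 | h5 <;> rw [h5] <;> norm_num
    have h4 : Nat.card (Sylow q K) = Nat.card (Sylow q G) := S4304.card_sylow_normal q K hi
    rcases hq with rfl | rfl
    · refine no_prime (r := 2) (q := 5) (N := 136) (hone 2 (Or.inl rfl)) ?_ (by norm_num) ?_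
      · rw [h4]
        rcases hprime 5 (by norm_num) hqG with ⟨h, h5⟩ | ⟨h, h5⟩ | ⟨h, h5⟩ | ⟨h, h5⟩ | ⟨h, h5⟩
        · omega
        · omega
        · exact h5
        · omega
        · omega
      · rintro d hd ⟨k, rfl⟩ hk
        have h6 : 2 ^ k ∈ Nat.divisors 136 := Nat.mem_divisors.2 ⟨hd, by norm_num⟩
        have h7 : Nat.divisors 136 = {1, 2, 4, 8, 17, 34, 68, 136} := by decide
        rw [h7] at h6
        simp only [Finset.mem_insert, Finset.mem_singleton] at h6
        have h8 : ¬ 17 ∣ 2 ^ k := fun h9 => by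
          have := (Nat.prime_dvd_prime_iff_eq (by norm_num) (by norm_num)).1
            ((show Nat.Prime 17 by norm_num).dvd_of_dvd_pow h9)
          omega
        omega
    · refine no_prime (r := 3) (q := 19) (N := 153) (hone 3 (Or.inr (Or.inl rfl))) ?_ (by norm_num) ?_
      · rw [h4]
        rcases hprime 19 (by norm_num) hqG with ⟨h, h5⟩ | ⟨h, h5⟩ | ⟨h, h5⟩ | ⟨h, h5⟩ | ⟨h, h5⟩
        · omega
        · omega
        · omega
        · omega
        · exact h5
      · rintro d hd ⟨k, rfl⟩ hk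
        have h6 : 3 ^ k ∈ Nat.divisors 153 := Nat.mem_divisors.2 ⟨hd, by norm_num⟩
        have h7 : Nat.divisors 153 = {1, 3, 9, 17, 51, 153} := by decide
        rw [h7] at h6
        simp only [Finset.mem_insert, Finset.mem_singleton] at h6
        have h8 : ¬ 17 ∣ 3 ^ k := fun h9 => by
          have := (Nat.prime_dvd_prime_iff_eq (by norm_num) (by norm_num)).1
            ((show Nat.Prime 17 by norm_num).dvd_of_dvd_pow h9)
          omega
        omega
  -- `K = 1`
  have hK1 : K = ⊥ := by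
    refine eq_bot hZ K fun r hr P => ?_
    by_cases hrG : r ∣ Nat.card G
    · rcases hprime r hr hrG with ⟨h, -⟩ | ⟨h, -⟩ | ⟨h, -⟩ | ⟨h, -⟩ | ⟨h, -⟩
      · exact hnorm r (Or.inr (Or.inr h)) P
      · exact hnorm r (Or.inr (Or.inl h)) P
      · exact absurd hrG (hbig r (Or.inl h))
      · exact hnorm r (Or.inl h) P
      · exact absurd hrG (hbig r (Or.inr h))
    · have hfr : Fact r.Prime := ⟨hr⟩
      have h4 : (P : Subgroup G) = ⊥ := by
        obtain ⟨k, hk⟩ := IsPGroup.iff_card.mp P.isPGroup'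
        have hk' : Nat.card (P : Subgroup G) = r ^ k := hk
        rcases Nat.eq_zero_or_pos k with rfl | hk0
        · exact Subgroup.card_eq_one.1 (by rw [hk', pow_zero])
        · exact absurd (((dvd_pow_self r hk0.ne').trans (dvd_of_eq hk'.symm)).trans
            (Subgroup.card_subgroup_dvd_card _)) hrG
      have h5 : (P : Subgroup G).Normal := by rw [h4]; infer_instance
      have h6 : normalizer ((P : Subgroup G) : Set G) = ⊤ := Subgroup.normalizer_eq_top_iff.2 h5
      exact le_top.trans h6.ge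
  have hypG : Hyp G := by
    refine ⟨h17, fun g hg => ?_⟩
    have h4 : g ∈ K := by
      rw [hKdef, MonoidHom.mem_ker]
      exact Equiv.ext hg
    rw [hK1, mem_bot] at h4
    exact h4
  exact identify T hK hypG hF

end Cfsg.Agent.H417.SylMain
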